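import Mathlib.RepresentationTheory.Basic
import Mathlib.Algebra.Field.ZMod
import Mathlib.LinearAlgebra.Span.Basic
import Mathlib.Tactic.Abel
import Mathlib.Tactic.Group

/-! # The four dimensional module of `3^2 : D8` over the field with two elements -/

namespace Cfsg.Agent.FGS4.SmallModule

variable {S M : Type*} [Group S] [AddCommGroup M] [Module (ZMod 2) M] (ρ : Representation (ZMod 2) S M)

theorem add_self' (v : M) : v + v = 0 := by
  have h : ((2 : ZMod 2)) • v = 0 := by rw [show (2 : ZMod 2) = 0 from by decide, zero_smul]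
  rwa [two_smul] at h

theorem eq_of_add_eq_zero' {v w : M} (h : v + w = 0) : v = w := by
  rw [← add_zero v, ← add_self' w, ← add_assoc, h, zero_add]

theorem app_mul (g h : S) (v : M) : ρ (g * h) v = ρ g (ρ h v) := by
  rw [map_mul, Module.End.mul_apply]

theorem app_one (v : M) : ρ 1 v = v := by
  rw [map_one, Module.End.one_apply]

/-- The relations among the generators. -/
structure Gens (r s z t : S) : Prop where
  hz : z = r * r
  hzz : z * z = 1
  hss : s * s = 1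
  hzs : z * s = s * z
  hsr : s * r = r * z * s
  ht3 : t * t * t = 1
  hzt : z * t = t⁻¹ * z
  hst : s * t = t * s
  hcomm : t * (r * t * r⁻¹) = (r * t * r⁻¹) * t

namespace Gens

variable {ρ} {r s z t : S} (hg : Gens r s z t)
include hg

theorem zr : z * r = r * z := by rw [hg.hz, mul_assoc]

theorem rinv : r⁻¹ = z * r := by
  rw [inv_eq_iff_mul_eq_one, hg.zr, ← mul_assoc, ← hg.hz, hg.hzz]

theorem zt' : z * (r * t * r⁻¹) = (r * t * r⁻¹)⁻¹ * z := by
  have h1 : z * r⁻¹ = r⁻¹ * z := by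
    rw [eq_inv_mul_iff_mul_eq, ← mul_assoc, ← hg.zr, mul_inv_cancel_right]
  calc z * (r * t * r⁻¹) = (z * r) * t * r⁻¹ := by group
    _ = r * (z * t) * r⁻¹ := by rw [hg.zr]; group
    _ = r * t⁻¹ * (z * r⁻¹) := by rw [hg.hzt]; group
    _ = (r * t * r⁻¹)⁻¹ * z := by rw [h1]; group

theorem st' : s * (r * t * r⁻¹) = (r * t * r⁻¹)⁻¹ * s := by
  have hsr' : s * r⁻¹ = r⁻¹ * z⁻¹ * s * 1 := by
    rw [mul_one]
    have h2 := hg.hsr
    have h3 : r * z * s * r⁻¹ = s := by rw [← h2, mul_inv_cancel_right]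
    calc s * r⁻¹ = z⁻¹ * r⁻¹ * (r * z * s * r⁻¹) := by group
      _ = z⁻¹ * r⁻¹ * s := by rw [h3]
      _ = r⁻¹ * z⁻¹ * s := by
        rw [show z⁻¹ * r⁻¹ = r⁻¹ * z⁻¹ by rw [← mul_inv_rev, ← mul_inv_rev, hg.zr]]
  have hzinv : z⁻¹ = z := inv_eq_of_mul_eq_one_right hg.hzz
  calc s * (r * t * r⁻¹) = (s * r) * t * r⁻¹ := by group
    _ = r * z * (s * t) * r⁻¹ := by rw [hg.hsr]; group
    _ = r * (z * t) * (s * r⁻¹) := by rw [hg.hst]; group
    _ = r * t⁻¹ * z * (r⁻¹ * z⁻¹ * s * 1) := by rw [hg.hzt, hsr']; group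
    _ = r * t⁻¹ * (z * r⁻¹ * z) * s := by rw [hzinv]; group
    _ = r * t⁻¹ * r⁻¹ * s := by
        congr 2
        rw [hg.rinv, hg.zr, mul_assoc z, mul_assoc r z z, hg.hzz, mul_one, hg.zr]
    _ = (r * t * r⁻¹)⁻¹ * s := by group

end Gens

variable [Finite M]

theorem module_of_fixed {r s z t : S} (hg : Gens r s z t)
    (hirr : ∀ N : Submodule (ZMod 2) M, (∀ g ∈ ({t, r, s} : Set S), ∀ m ∈ N, ρ g m ∈ N) → N = ⊥ ∨ N = ⊤)
    (hfix : ∀ v, ρ t v = v → ρ (r * t * r⁻¹) v = v → v = 0)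
    {w₀ : M} (hw₀ : w₀ ≠ 0) (hw₀t : ρ t w₀ = w₀) :
    Nat.card M = 16 ∧ Nat.card {m : M // ρ z m = m ∧ ρ (r * s) m = m} = 2 ∧
      ∃ a b : M, a ≠ 0 ∧ b ≠ 0 ∧ a ≠ b ∧ (ρ z a = a ∧ ρ s a = a) ∧ (ρ z b = b ∧ ρ s b = b) := by
  classical
  set t' := r * t * r⁻¹ with ht'
  -- `w` fixed by `t`, `z * s` and `s`
  obtain ⟨w₁, hw₁, hw₁t, hw₁zs⟩ : ∃ w, w ≠ 0 ∧ ρ t w = w ∧ ρ (z * s) w = w := by
    have key : ρ t (ρ (z * s) w₀) = ρ (z * s) w₀ := by
      have e : t * (z * s) = (z * s) * t⁻¹ := by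
        have h1 : t * z = z * t⁻¹ := by
          rw [eq_mul_inv_iff_mul_eq, mul_assoc, hg.hzt, mul_inv_cancel_left]
        have h2 : s * t⁻¹ = t⁻¹ * s := by
          rw [eq_inv_mul_iff_mul_eq, ← mul_assoc, ← hg.hst, mul_inv_cancel_right]
        rw [← mul_assoc, h1, mul_assoc, ← h2, mul_assoc]
      rw [← app_mul, e, app_mul]
      congr 1
      conv_lhs => rw [← hw₀t, ← app_mul, inv_mul_cancel, app_one]
    by_cases h : w₀ + ρ (z * s) w₀ = 0
    · exact ⟨w₀, hw₀, hw₀t, (eq_of_add_eq_zero' h).symm⟩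
    refine ⟨_, h, by rw [map_add, hw₀t, key], ?_⟩
    have e : z * s * (z * s) = 1 := by
      rw [mul_assoc z, ← mul_assoc s, ← hg.hzs, mul_assoc z s s, hg.hss, mul_one, hg.hzz]
    rw [map_add, ← app_mul, e, app_one, add_comm]
  obtain ⟨w, hw, hwt, hwzs, hws⟩ : ∃ w, w ≠ 0 ∧ ρ t w = w ∧ ρ (z * s) w = w ∧ ρ s w = w := by
    have k1 : ρ t (ρ s w₁) = ρ s w₁ := by rw [← app_mul, ← hg.hst, app_mul, hw₁t]
    have k2 : ρ (z * s) (ρ s w₁) = ρ s w₁ := by
      conv_rhs => rw [← hw₁zs]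
      rw [← app_mul, ← app_mul, ← mul_assoc s, ← hg.hzs]
    by_cases h : w₁ + ρ s w₁ = 0
    · exact ⟨w₁, hw₁, hw₁t, hw₁zs, (eq_of_add_eq_zero' h).symm⟩
    refine ⟨_, h, by rw [map_add, hw₁t, k1], by rw [map_add, hw₁zs, k2], ?_⟩
    rw [map_add, ← app_mul, hg.hss, app_one, add_comm]
  have hwz : ρ z w = w := by
    conv_lhs => rw [← hws]
    rw [← app_mul, hwzs]
  set u := ρ t' w with hu
  have hut : ρ t u = u := by rw [hu, ← app_mul, hg.hcomm, app_mul, hwt]
  have ht'3 : t' * t' * t' = 1 := by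
    rw [ht', show r * t * r⁻¹ * (r * t * r⁻¹) * (r * t * r⁻¹) = r * (t * t * t) * r⁻¹ by group, hg.ht3]
    group
  have ht'inv : t'⁻¹ = t' * t' := inv_eq_of_mul_eq_one_right (by rw [← mul_assoc, ht'3])
  have ht'u : ρ t' u = w + u := by
    refine eq_of_add_eq_zero' ?_
    refine hfix _ ?_ ?_
    · rw [map_add, map_add, hwt, hut, ← app_mul, hg.hcomm, app_mul, hut]
    · have e : ρ t' (ρ t' u) = w := by
        rw [hu, ← app_mul, ← app_mul, ht'3, app_one]
      show ρ t' (ρ t' u + (w + u)) = ρ t' u + (w + u)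
      rw [map_add, map_add, e, ← hu]
      abel
  have hzu : ρ z u = w + u := by
    rw [hu, ← app_mul, hg.zt', app_mul, hwz, ht'inv, app_mul, ← hu, ht'u]
  have hsu : ρ s u = w + u := by
    rw [hu, ← app_mul, hg.st', app_mul, hws, ht'inv, app_mul, ← hu, ht'u]
  have hru : ρ r (ρ r u) = w + u := by rw [← app_mul, ← hg.hz, hzu]
  have hrw : ρ r (ρ r w) = w := by rw [← app_mul, ← hg.hz, hwz]
  have htr : t * r = r * t'⁻¹ := by
    have h1 : r⁻¹ * t * r = z * (r * t * r⁻¹) * z⁻¹ := by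
      calc r⁻¹ * t * r = (z * r) * t * (z * r)⁻¹ := by rw [← hg.rinv, inv_inv]
        _ = z * (r * t * r⁻¹) * z⁻¹ := by group
    rw [← ht', hg.zt', mul_inv_cancel_right] at h1
    rw [ht', ← h1]; group
  have htrw : ρ t (ρ r w) = ρ r w + ρ r u := by
    rw [← app_mul, htr, app_mul, ht'inv, app_mul, ← hu, ht'u, map_add]
  have htru : ρ t (ρ r u) = ρ r w := by
    rw [← app_mul, htr, app_mul, hu, ← app_mul ρ t'⁻¹, inv_mul_cancel, app_one]
  have hsrx : ∀ v, ρ s (ρ r v) = ρ r (ρ z (ρ s v)) := fun v => by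
    rw [← app_mul, hg.hsr, app_mul, app_mul]
  have hsrw : ρ s (ρ r w) = ρ r w := by rw [hsrx, hws, hwz]
  have hsru : ρ s (ρ r u) = ρ r u := by
    rw [hsrx, hsu, map_add, hwz, hzu, ← add_assoc, add_self', zero_add]
  have hzr : ∀ v, ρ z (ρ r v) = ρ r (ρ z v) := fun v => by rw [← app_mul, hg.zr, app_mul]
  -- independence
  have ht'r : ∀ v, ρ t v = v → ρ t' (ρ r v) = ρ r v := fun v hv => by
    rw [← app_mul, show t' * r = r * t by rw [ht']; group, app_mul, hv]
  let L : ZMod 2 × ZMod 2 × ZMod 2 × ZMod 2 → M := fun p =>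
    (p.1 • w + p.2.1 • u) + (p.2.2.1 • ρ r w + p.2.2.2 • ρ r u)
  have hpair : ∀ a b : ZMod 2, a • w + b • u = 0 → a = 0 ∧ b = 0 := by
    intro a b h
    have h01 : ∀ x : ZMod 2, x = 0 ∨ x = 1 := by decide
    rcases h01 a with rfl | rfl <;> rcases h01 b with rfl | rfl
    · exact ⟨rfl, rfl⟩
    · rw [zero_smul, one_smul, zero_add, hu] at h
      exfalso; apply hw
      rw [← app_one ρ w, ← inv_mul_cancel t', app_mul, h, map_zero]
    · rw [zero_smul, one_smul, add_zero] at h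
      exact absurd h hw
    · rw [one_smul, one_smul] at h
      exact absurd (hfix w hwt (eq_of_add_eq_zero' h).symm) hw
  have hL0 : ∀ p, L p = 0 → p = 0 := by
    rintro ⟨a, b, c, d⟩ h
    have hA : ρ t (a • w + b • u) = a • w + b • u := by rw [map_add, map_smul, map_smul, hwt, hut]
    have hB : ρ t' (c • ρ r w + d • ρ r u) = c • ρ r w + d • ρ r u := by
      rw [map_add, map_smul, map_smul, ht'r w hwt, ht'r u hut]
    have hAB : a • w + b • u = c • ρ r w + d • ρ r u := eq_of_add_eq_zero' h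
    have h1 : a • w + b • u = 0 := hfix _ hA (by rw [hAB]; exact hB)
    obtain ⟨rfl, rfl⟩ := hpair a b h1
    rw [h1] at hAB
    have h2 : c • w + d • u = 0 := by
      apply Function.LeftInverse.injective (g := ρ r⁻¹) (f := ρ r) (fun v => by rw [← app_mul, inv_mul_cancel, app_one])
      rw [map_add, map_smul, map_smul, map_zero, ← hAB]
    obtain ⟨rfl, rfl⟩ := hpair c d h2
    rfl
  have hLadd : ∀ p q, L (p + q) = L p + L q := fun p q => by
    simp only [L, Prod.fst_add, Prod.snd_add, add_smul]; abel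
  have hLinj : Function.Injective L := fun p q h => by
    have := hL0 (p + q) (by rw [hLadd, h, add_self'])
    have key : ∀ p q : ZMod 2 × ZMod 2 × ZMod 2 × ZMod 2, p + q = 0 → p = q := by decide
    exact key p q this
  -- the span is everything
  let Lin : (ZMod 2 × ZMod 2 × ZMod 2 × ZMod 2) →ₗ[ZMod 2] M :=
    { toFun := L
      map_add' := hLadd
      map_smul' := fun c p => by simp only [L, RingHom.id_apply, Prod.smul_fst, Prod.smul_snd, smul_eq_mul, mul_smul, smul_add] }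
  have hmem : ∀ a b c d : ZMod 2, a • w + b • u + (c • ρ r w + d • ρ r u) ∈ LinearMap.range Lin :=
    fun a b c d => ⟨(a, b, c, d), rfl⟩
  have hW : w ∈ LinearMap.range Lin := by simpa using hmem 1 0 0 0
  have hU : u ∈ LinearMap.range Lin := by simpa using hmem 0 1 0 0
  have hRW : ρ r w ∈ LinearMap.range Lin := by simpa using hmem 0 0 1 0
  have hRU : ρ r u ∈ LinearMap.range Lin := by simpa using hmem 0 0 0 1
  have htop : LinearMap.range Lin = ⊤ := by
    refine (hirr _ ?_).resolve_left fun h => hw (by simpa [h] using hW)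
    rintro g hgm _ ⟨⟨a, b, c, d⟩, rfl⟩
    show ρ g (a • w + b • u + (c • ρ r w + d • ρ r u)) ∈ LinearMap.range Lin
    rcases hgm with rfl | rfl | rfl
    · simp only [map_add, map_smul, hwt, hut, htrw, htru]
      exact add_mem (add_mem (Submodule.smul_mem _ _ hW) (Submodule.smul_mem _ _ hU))
        (add_mem (Submodule.smul_mem _ _ (add_mem hRW hRU)) (Submodule.smul_mem _ _ hRW))
    · simp only [map_add, map_smul, hrw, hru]
      exact add_mem (add_mem (Submodule.smul_mem _ _ hRW) (Submodule.smul_mem _ _ hRU))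
        (add_mem (Submodule.smul_mem _ _ hW) (Submodule.smul_mem _ _ (add_mem hW hU)))
    · simp only [map_add, map_smul, hws, hsu, hsrw, hsru]
      exact add_mem (add_mem (Submodule.smul_mem _ _ hW) (Submodule.smul_mem _ _ (add_mem hW hU)))
        (add_mem (Submodule.smul_mem _ _ hRW) (Submodule.smul_mem _ _ hRU))
  have hLsur : Function.Surjective L := LinearMap.range_eq_top.1 htop
  refine ⟨?_, ?_, w, ρ r w, hw, fun h => ?_, fun h => ?_, ⟨hwz, hws⟩, ⟨by rw [hzr, hwz], hsrw⟩⟩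
  · rw [← Nat.card_eq_of_bijective L ⟨hLinj, hLsur⟩]
    simp [Nat.card_prod]
  · have hrsw : ρ (r * s) w = ρ r w := by rw [app_mul, hws]
    have hrsrw : ρ (r * s) (ρ r w) = w := by rw [app_mul, hsrw, hrw]
    rw [Nat.card_eq_two_iff]
    refine ⟨⟨0, map_zero _, map_zero _⟩, ⟨w + ρ r w, by rw [map_add, hwz, hzr, hwz],
      by rw [map_add, hrsw, hrsrw, add_comm]⟩, fun h => ?_, Set.eq_univ_of_forall ?_⟩
    · have h' : L (1, 0, 1, 0) = 0 := by simpa [L] using (congrArg Subtype.val h).symm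
      exact absurd (hL0 _ h') (by decide)
    rintro ⟨m, hmz, hmrs⟩
    obtain ⟨⟨a, b, c, d⟩, rfl⟩ := hLsur m
    have h1 : ρ z (L (a, b, c, d)) = L (a + b, b, c + d, d) := by
      simp only [L, map_add, map_smul, hwz, hzu, hzr, add_smul, smul_add]; abel
    rw [h1] at hmz
    have hb := hLinj hmz
    simp only [Prod.mk.injEq, add_eq_left, true_and, and_true] at hb
    obtain ⟨rfl, rfl⟩ := hb
    have h2 : ρ (r * s) (L (a, 0, c, 0)) = L (c, 0, a, 0) := by
      simp only [L, map_add, map_smul, zero_smul, add_zero, hrsw, hrsrw]; abel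
    rw [h2] at hmrs
    have hac : c = a := (Prod.mk.injEq .. ▸ hLinj hmrs).1
    subst hac
    have h01 : ∀ x : ZMod 2, x = 0 ∨ x = 1 := by decide
    rcases h01 c with rfl | rfl
    · exact Or.inl (Subtype.ext (by simp [L]))
    · exact Or.inr (Subtype.ext (by simp [L]))
  · apply hw
    rw [← hrw, h, map_zero]
  · have h' : L (1, 0, 1, 0) = 0 := by simp [L, ← h, add_self']
    exact absurd (hL0 _ h') (by decide)

end Cfsg.Agent.FGS4.SmallModule
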