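import Cfsg.Agent.FGS4.SmallModule.Core
import Cfsg.Prelude.Def_Transfer
import Mathlib.GroupTheory.SpecificGroups.Dihedral
import Mathlib.GroupTheory.Coset.Card
import Mathlib.Tactic.Module
import Mathlib.Tactic.LinearCombination

/-! # The group `3^2 : D8` and its faithful irreducible modules in characteristic two -/

set_option linter.style.haveILetI false

namespace Cfsg.Agent.FGS4.SmallModule

set_option synthInstance.maxSize 1024 in
theorem dihedral_pair : ∀ x y : DihedralGroup 4, x * x = 1 → y * y = 1 → x * y = y * x →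
    ¬ ((x = .sr 0 ∨ x = .sr 2) ∧ (y = .sr 1 ∨ y = .sr 3)) := by decide

theorem dihedral_inv : ∀ x : DihedralGroup 4, x * x = 1 →
    x = 1 ∨ x = .r 2 ∨ x = .sr 0 ∨ x = .sr 2 ∨ x = .sr 1 ∨ x = .sr 3 := by decide

variable {S M : Type*} [Group S] [Finite S] [AddCommGroup M] [Module (ZMod 2) M] [Finite M]

/-- A subgroup `{1, z, y, z * y}`. -/
def four (z y : S) (hz : z * z = 1) (hy : y * y = 1) (hzy : z * y = y * z) : Subgroup S where
  carrier := {1, z, y, z * y}
  one_mem' := Or.inl rfl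
  mul_mem' := by
    have e1 : y * (z * y) = z := by rw [hzy, ← mul_assoc, hy, one_mul]
    have e2 : z * y * z = y := by rw [hzy, mul_assoc, hz, mul_one]
    have e3 : z * y * y = z := by rw [mul_assoc, hy, mul_one]
    have e4 : z * y * (z * y) = 1 := by rw [← mul_assoc, e2, hy]
    have e5 : z * (z * y) = y := by rw [← mul_assoc, hz, one_mul]
    rintro a b (rfl | rfl | rfl | rfl) (rfl | rfl | rfl | rfl) <;>
      simp only [one_mul, mul_one, hz, hy, e1, e2, e3, e4, e5, ← hzy, Set.mem_insert_iff,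
        Set.mem_singleton_iff, true_or, or_true]
  inv_mem' := by
    have e4 : (z * y)⁻¹ = z * y := inv_eq_of_mul_eq_one_right (by
      rw [mul_assoc, ← mul_assoc y, ← hzy, mul_assoc z y y, hy, mul_one, hz])
    rintro a (rfl | rfl | rfl | rfl) <;>
      simp only [inv_one, inv_eq_of_mul_eq_one_right hz, inv_eq_of_mul_eq_one_right hy, e4,
        Set.mem_insert_iff, Set.mem_singleton_iff, true_or, or_true]

omit [Finite S] in
theorem mem_four {z y : S} {hz : z * z = 1} {hy : y * y = 1} {hzy : z * y = y * z} {x : S} :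
    x ∈ four z y hz hy hzy ↔ x = 1 ∨ x = z ∨ x = y ∨ x = z * y := Iff.rfl

omit [Finite S] in
theorem card_four {z y : S} {hz : z * z = 1} {hy : y * y = 1} {hzy : z * y = y * z} (hz1 : z ≠ 1) (hy1 : y ≠ 1)
    (hne : z ≠ y) : Nat.card (four z y hz hy hzy) = 4 := by
  classical
  have h1 : z * y ≠ 1 := fun h => hne (by
    rw [← inv_eq_of_mul_eq_one_right hy]; exact eq_inv_of_mul_eq_one_left h)
  show Nat.card (({1, z, y, z * y} : Set S) : Type _) = 4
  rw [Nat.card_coe_set_eq, Set.ncard_insert_of_notMem, Set.ncard_insert_of_notMem, Set.ncard_pair]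
  · intro h; exact hz1 (mul_eq_right.1 h.symm)
  · simp only [Set.mem_insert_iff, Set.mem_singleton_iff, not_or]
    exact ⟨hne, fun h => hy1 (mul_eq_left.1 h.symm)⟩
  · simp only [Set.mem_insert_iff, Set.mem_singleton_iff, not_or]
    exact ⟨hz1.symm, hy1.symm, h1.symm⟩

theorem main (A : Subgroup S) [A.Normal] (hA : Cfsg.IsElementaryAbelian 3 A) (hA9 : Nat.card A = 9)
    (hAC : Subgroup.centralizer (A : Set S) = A) (X : Subgroup S) (hX : Nonempty (X ≃* DihedralGroup 4))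
    (hAX : A ⊔ X = ⊤) (ρ : Representation (ZMod 2) S M) (hfaith : Function.Injective ρ)
    (hirr : ∀ N : Submodule (ZMod 2) M, (∀ s : S, ∀ m ∈ N, ρ s m ∈ N) → N = ⊥ ∨ N = ⊤) (hM : Nontrivial M) :
    Nat.card M = 16 ∧
      ∃! B : Subgroup S, B ≤ X ∧ Nat.card B = 4 ∧ (∀ b ∈ B, b ^ 2 = 1) ∧
        Nat.card {m : M // ∀ b ∈ B, ρ b m = m} = 2 := by
  classical
  obtain ⟨e⟩ := hX
  obtain ⟨hAab, hA3⟩ := hA
  have hc : ∀ a ∈ A, ∀ b ∈ A, a * b = b * a := fun a ha b hb =>
    congrArg Subtype.val (hAab.is_comm.comm (⟨a, ha⟩ : A) ⟨b, hb⟩)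
  have ha3 : ∀ a ∈ A, a * a * a = 1 := fun a ha => by rw [← hA3 a ha, pow_succ, pow_two]
  let ι : DihedralGroup 4 →* S := X.subtype.comp e.symm.toMonoidHom
  have hιX : ∀ g, ι g ∈ X := fun g => (e.symm g).2
  have hιsur : ∀ x ∈ X, ∃ g, ι g = x := fun x hx => ⟨e ⟨x, hx⟩, by simp [ι]⟩
  have hιinj : Function.Injective ι := X.subtype_injective.comp e.symm.injective
  -- nothing of `X` but `1` centralizes `A`
  have hXA : ∀ g, (∀ a ∈ A, a * ι g = ι g * a) → g = 1 := by
    intro g hg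
    have h1 : ι g ∈ A := by rw [← hAC, Subgroup.mem_centralizer_iff]; exact hg
    have h2 : orderOf (ι g) ∣ 3 := orderOf_dvd_of_pow_eq_one (hA3 _ h1)
    have h3 : orderOf (ι g) ∣ 8 := by
      rw [orderOf_injective ι hιinj]
      have := orderOf_dvd_natCard g
      rwa [DihedralGroup.nat_card] at this
    have h4 := Nat.dvd_gcd h2 h3
    rw [show Nat.gcd 3 8 = 1 from rfl, Nat.dvd_one, orderOf_eq_one_iff] at h4
    exact hιinj (by rw [h4, map_one])
  set r := ι (.r 1) with hr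
  set z := ι (.r 2) with hz
  set s := ι (.sr 0) with hs
  have hzr2 : z = r * r := by rw [hz, hr, ← map_mul]; rfl
  have hzz : z * z = 1 := by rw [hz, ← map_mul, ← map_one ι]; rfl
  have hss : s * s = 1 := by rw [hs, ← map_mul, ← map_one ι]; rfl
  have hzs : z * s = s * z := by rw [hz, hs, ← map_mul, ← map_mul]; rfl
  have hsr : s * r = r * z * s := by rw [hz, hs, hr, ← map_mul, ← map_mul, ← map_mul]; rfl
  have hcj : ∀ g a, a ∈ A → g * a * g⁻¹ ∈ A := fun g a ha => Subgroup.Normal.conj_mem inferInstance a ha g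
  -- `z` inverts `A`
  have hpair : ∀ a ∈ A, ∀ b ∈ A, a ≠ 1 → b ∉ Subgroup.zpowers a →
      ∀ c ∈ A, ∃ p ∈ Subgroup.zpowers a, ∃ q ∈ Subgroup.zpowers b, p * q = c := by
    intro a ha b hb ha1 hba c hc'
    have hb1 : b ≠ 1 := fun h => hba (h ▸ Subgroup.one_mem _)
    have hca : Nat.card (Subgroup.zpowers a) = 3 := by
      rw [Nat.card_zpowers]; exact orderOf_eq_prime (hA3 a ha) ha1
    have hcb : Nat.card (Subgroup.zpowers b) = 3 := by
      rw [Nat.card_zpowers]; exact orderOf_eq_prime (hA3 b hb) hb1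
    have hdisj : Disjoint (Subgroup.zpowers a) (Subgroup.zpowers b) := by
      rw [disjoint_iff]
      by_contra hne
      have h1 : Subgroup.zpowers a ⊓ Subgroup.zpowers b = Subgroup.zpowers b := by
        refine Subgroup.eq_of_le_of_card_ge inf_le_right ?_
        have hd := Subgroup.card_dvd_of_le (inf_le_right : Subgroup.zpowers a ⊓ Subgroup.zpowers b ≤ _)
        rw [hcb] at hd
        rcases (Nat.dvd_prime Nat.prime_three).1 hd with h | h
        · exact absurd (Subgroup.card_eq_one.1 h) hne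
        · rw [hcb, h]
      exact hba ((h1.ge (Subgroup.mem_zpowers b)).1)
    let f : Subgroup.zpowers a × Subgroup.zpowers b → A := fun g =>
      ⟨g.1 * g.2, A.mul_mem (Subgroup.zpowers_le.2 ha g.1.2) (Subgroup.zpowers_le.2 hb g.2.2)⟩
    haveI := Fintype.ofFinite A
    haveI := Fintype.ofFinite (Subgroup.zpowers a × Subgroup.zpowers b)
    have hf : Function.Bijective f := by
      refine (Fintype.bijective_iff_injective_and_card f).2 ⟨fun x y h =>
        Subgroup.mul_injective_of_disjoint hdisj (congrArg Subtype.val h), ?_⟩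
      rw [← Nat.card_eq_fintype_card, ← Nat.card_eq_fintype_card, Nat.card_prod, hca, hcb, hA9]
    obtain ⟨⟨p, q⟩, hpq⟩ := hf.2 ⟨c, hc'⟩
    exact ⟨p, p.2, q, q.2, congrArg Subtype.val hpq⟩
  have hz1 : z ≠ 1 := fun h => absurd (hιinj (h.trans (map_one ι).symm)) (by decide)
  have hzinv : z⁻¹ = z := inv_eq_of_mul_eq_one_right hzz
  have hzfix : ∀ a ∈ A, z * a * z⁻¹ = a → a = 1 := by
    intro a ha hza
    by_contra ha1
    -- some element is inverted
    obtain ⟨b, hb, hb1, hzb⟩ : ∃ b ∈ A, b ≠ 1 ∧ z * b * z⁻¹ = b⁻¹ := by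
      by_contra hne
      push Not at hne
      refine absurd (hXA (.r 2) fun c hc' => ?_) (by decide)
      set d := c * (z * c * z⁻¹)⁻¹ with hd
      have hdA : d ∈ A := A.mul_mem hc' (A.inv_mem (hcj z c hc'))
      have hd' : z * d * z⁻¹ = d⁻¹ := by
        show z * (c * (z * c * z⁻¹)⁻¹) * z⁻¹ = (c * (z * c * z⁻¹)⁻¹)⁻¹
        calc z * (c * (z * c * z⁻¹)⁻¹) * z⁻¹ = (z * c * z⁻¹) * ((z * z) * c⁻¹ * (z * z)⁻¹) := by group
          _ = (c * (z * c * z⁻¹)⁻¹)⁻¹ := by rw [hzz]; group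
      have hd1 : d = 1 := by
        by_contra h
        exact hne d hdA h hd'
      rw [hd, mul_inv_eq_one] at hd1
      calc c * z = (z * c * z⁻¹) * z := by rw [← hd1]
        _ = z * c := by rw [inv_mul_cancel_right]
    have hzconj : ∀ x ∈ Subgroup.zpowers a, z * x * z⁻¹ = x := by
      intro x hx
      obtain ⟨i, rfl⟩ := Subgroup.mem_zpowers_iff.1 hx
      rw [← conj_zpow, hza]
    have hba : b ∉ Subgroup.zpowers a := fun h => hb1 (by
      have h1 : b = b⁻¹ := (hzconj b h).symm.trans hzb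
      have h2 := ha3 b hb
      rw [mul_eq_one_iff_eq_inv.2 h1, one_mul] at h2
      exact h2)
    set b' := r * b * r⁻¹ with hb'
    have hzb' : z * b' * z⁻¹ = b'⁻¹ := by
      rw [hb', show z * (r * b * r⁻¹) * z⁻¹ = r * (z * b * z⁻¹) * r⁻¹ by rw [hzr2]; group, hzb]
      group
    obtain ⟨p, hp, q, hq, hpq⟩ := hpair a ha b hb ha1 hba b' (hcj r b hb)
    have hpA : p ∈ A := Subgroup.zpowers_le.2 ha hp
    have hqA : q ∈ A := Subgroup.zpowers_le.2 hb hq
    have hzq : z * q * z⁻¹ = q⁻¹ := by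
      obtain ⟨i, rfl⟩ := Subgroup.mem_zpowers_iff.1 hq
      rw [← conj_zpow, hzb, inv_zpow]
    have hp1 : p = 1 := by
      rw [← hpq, ← conj_mul, hzconj p hp, hzq, mul_inv_rev, hc _ (A.inv_mem hqA) _ (A.inv_mem hpA)] at hzb'
      have h2 : p = p⁻¹ := mul_right_cancel hzb'
      have h3 := ha3 p hpA
      rw [mul_eq_one_iff_eq_inv.2 h2, one_mul] at h3
      exact h3
    rw [hp1, one_mul] at hpq
    have hbr : r * b' * r⁻¹ = b⁻¹ := by
      rw [hb', show r * (r * b * r⁻¹) * r⁻¹ = (r * r) * b * (r * r)⁻¹ by group, ← hzr2, hzb]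
    obtain ⟨i, hi⟩ := (IsOfFinOrder.mem_powers_iff_mem_zpowers (isOfFinOrder_of_finite b)).2 hq
    dsimp at hi
    have hbi : b ^ (i * i) = b⁻¹ := by
      rw [← hbr, ← hpq, ← hi, ← conj_pow, ← hb', ← hpq, ← hi, ← pow_mul]
    have hob : orderOf b = 3 := orderOf_eq_prime (hA3 b hb) hb1
    rw [eq_inv_iff_mul_eq_one, ← pow_succ, ← orderOf_dvd_iff_pow_eq_one, hob] at hbi
    have : ∀ j : ZMod 3, j * j + 1 ≠ 0 := by decide
    apply this (i : ZMod 3)
    rw [← (ZMod.natCast_eq_zero_iff _ 3) ] at hbi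
    push_cast at hbi
    exact hbi
  have hzA : ∀ a ∈ A, z * a * z⁻¹ = a⁻¹ := by
    intro a ha
    have h1 := hzfix (a * (z * a * z⁻¹)) (A.mul_mem ha (hcj z a ha)) (by
      calc z * (a * (z * a * z⁻¹)) * z⁻¹ = (z * a * z⁻¹) * ((z * z) * a * (z * z)⁻¹) := by group
        _ = (z * a * z⁻¹) * a := by rw [hzz]; group
        _ = a * (z * a * z⁻¹) := hc _ (hcj z a ha) a ha)
    exact eq_inv_of_mul_eq_one_right h1
  -- an element fixed by `s`
  obtain ⟨t, ht, ht1, hst⟩ : ∃ t ∈ A, t ≠ 1 ∧ s * t * s⁻¹ = t := by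
    by_contra hne
    push Not at hne
    refine absurd (hXA (.sr 2) fun c hc' => ?_) (by decide)
    have e : ι (.sr 2) = s * z := by rw [hs, hz, ← map_mul]; rfl
    have h1 : c * (s * c * s⁻¹) = 1 := by
      by_contra h
      refine hne _ (A.mul_mem hc' (hcj s c hc')) h ?_
      calc s * (c * (s * c * s⁻¹)) * s⁻¹ = (s * c * s⁻¹) * ((s * s) * c * (s * s)⁻¹) := by group
        _ = (s * c * s⁻¹) * c := by rw [hss]; group
        _ = c * (s * c * s⁻¹) := hc _ (hcj s c hc') c hc'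
    have h3 : s * c⁻¹ * s⁻¹ = c := by
      rw [show s * c⁻¹ * s⁻¹ = (s * c * s⁻¹)⁻¹ by group]
      exact (eq_inv_of_mul_eq_one_left h1).symm
    rw [e]
    calc c * (s * z) = s * c⁻¹ * s⁻¹ * (s * z) := by rw [h3]
      _ = s * ((z * c * z⁻¹) * z) := by rw [hzA c hc']; group
      _ = s * z * c := by group
  set t' := r * t * r⁻¹ with ht'
  have htA' : t' ∈ A := hcj r t ht
  have hst' : s * t' * s⁻¹ = t'⁻¹ := by
    rw [ht', show s * (r * t * r⁻¹) * s⁻¹ = (s * r) * t * (s * r)⁻¹ by group, hsr,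
      show r * z * s * t * (r * z * s)⁻¹ = r * (z * (s * t * s⁻¹) * z⁻¹) * r⁻¹ by group, hst, hzA t ht]
    group
  have ht'1 : t' ≠ 1 := fun h => ht1 (conj_eq_one_iff.1 h)
  have hindep : t' ∉ Subgroup.zpowers t := fun h => ht'1 (by
    have h1 : s * t' * s⁻¹ = t' := by
      obtain ⟨i, hi⟩ := Subgroup.mem_zpowers_iff.1 h
      rw [← hi, ← conj_zpow, hst]
    have h2 := ha3 t' htA'
    rw [mul_eq_one_iff_eq_inv.2 (h1.symm.trans hst'), one_mul] at h2
    exact h2)
  have hclosure : ∀ (Γ : Subgroup S), t ∈ Γ → r ∈ Γ → s ∈ Γ → Γ = ⊤ := by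
    intro Γ htΓ hrΓ hsΓ
    have hA' : A ≤ Γ := fun c hc' => by
      obtain ⟨p, hp, q, hq, rfl⟩ := hpair t ht t' htA' ht1 hindep c hc'
      exact Γ.mul_mem (Subgroup.zpowers_le.2 htΓ hp)
        (Subgroup.zpowers_le.2 (Γ.mul_mem (Γ.mul_mem hrΓ htΓ) (Γ.inv_mem hrΓ)) hq)
    have hX' : X ≤ Γ := fun x hx => by
      obtain ⟨g, rfl⟩ := hιsur x hx
      have hgen : ∀ g : DihedralGroup 4, ∃ i : Fin 4, ∃ j : Fin 2, g = .r 1 ^ (i : ℕ) * .sr 0 ^ (j : ℕ) := by decide
      obtain ⟨i, j, rfl⟩ := hgen g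
      rw [map_mul, map_pow, map_pow]
      exact Γ.mul_mem (Γ.pow_mem hrΓ _) (Γ.pow_mem hsΓ _)
    exact top_le_iff.1 (hAX ▸ sup_le hA' hX')
  have hfix : ∀ v, ρ t v = v → ρ t' v = v → v = 0 := by
    intro v h1 h2
    let N : Submodule (ZMod 2) M := ⨅ a : A, LinearMap.ker (ρ (a : S) - 1)
    have hN : ∀ {m}, m ∈ N ↔ ∀ a ∈ A, ρ a m = m := fun {m} => by simp [N, sub_eq_zero]
    have hvN : v ∈ N := hN.2 fun c hc' => by
      obtain ⟨p, hp, q, hq, rfl⟩ := hpair t ht t' htA' ht1 hindep c hc'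
      obtain ⟨i, rfl⟩ := (IsOfFinOrder.mem_powers_iff_mem_zpowers (isOfFinOrder_of_finite t)).2 hp
      obtain ⟨j, rfl⟩ := (IsOfFinOrder.mem_powers_iff_mem_zpowers (isOfFinOrder_of_finite t')).2 hq
      rw [app_mul, map_pow, map_pow, Module.End.pow_apply, Module.End.pow_apply,
        Function.iterate_fixed h2, Function.iterate_fixed h1]
    rcases hirr N (fun g m hm => hN.2 fun a ha => by
      rw [← app_mul, show a * g = g * (g⁻¹ * a * g⁻¹⁻¹) by group, app_mul, hN.1 hm _ (hcj g⁻¹ a ha)]) with h | h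
    · rw [h] at hvN; exact (Submodule.mem_bot _).1 hvN
    · exfalso
      refine ht1 (hfaith (LinearMap.ext fun m => ?_))
      rw [app_one]
      exact hN.1 (h ▸ Submodule.mem_top) t ht
  have hirr' : ∀ t₀, (∀ (Γ : Subgroup S), t₀ ∈ Γ → r ∈ Γ → s ∈ Γ → Γ = ⊤) →
      ∀ N : Submodule (ZMod 2) M, (∀ g ∈ ({t₀, r, s} : Set S), ∀ m ∈ N, ρ g m ∈ N) → N = ⊥ ∨ N = ⊤ := by
    intro t₀ hgen N hN
    let mon : Submonoid S :=
      { carrier := {g | ∀ m ∈ N, ρ g m ∈ N}
        one_mem' := fun m hm => by rw [app_one]; exact hm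
        mul_mem' := fun {a b} ha hb m hm => by rw [app_mul]; exact ha _ (hb _ hm) }
    let Γ : Subgroup S :=
      { mon with
        inv_mem' := fun {g} hg => by
          have hmem : g⁻¹ ∈ Submonoid.powers g :=
            (IsOfFinOrder.mem_powers_iff_mem_zpowers (isOfFinOrder_of_finite g)).2 (Subgroup.inv_mem _ (Subgroup.mem_zpowers g))
          exact (Submonoid.powers_le.2 (show g ∈ mon from hg)) hmem }
    have := hgen Γ (hN t₀ (Or.inl rfl)) (hN r (Or.inr (Or.inl rfl))) (hN s (Or.inr (Or.inr rfl)))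
    exact hirr N fun g m hm => (show g ∈ Γ by rw [this]; exact Subgroup.mem_top g) m hm
  have hcomm : t * t' = t' * t := hc t ht t' htA'
  have hg₁ : Gens r s z t := ⟨hzr2, hzz, hss, hzs, hsr, ha3 t ht,
    mul_inv_eq_iff_eq_mul.1 (hzA t ht), mul_inv_eq_iff_eq_mul.1 hst, hcomm⟩
  -- the other reflection
  set t₂ := t * t' with ht₂
  have ht₂A : t₂ ∈ A := A.mul_mem ht htA'
  have hrt' : r * t' * r⁻¹ = t⁻¹ := by
    rw [ht', show r * (r * t * r⁻¹) * r⁻¹ = (r * r) * t * (r * r)⁻¹ by group, ← hzr2, hzA t ht]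
  have hrst₂ : r * s * t₂ * (r * s)⁻¹ = t₂ := by
    rw [show r * s * t₂ * (r * s)⁻¹ = r * (s * t * s⁻¹) * r⁻¹ * (r * (s * t' * s⁻¹) * r⁻¹) by
      rw [ht₂]; group, hst, hst', show r * t'⁻¹ * r⁻¹ = (r * t' * r⁻¹)⁻¹ by group, hrt', inv_inv, ← ht', ht₂]
    exact hcomm.symm
  have hrsr : r * s = ι (.r 1 * .sr 0) := by rw [map_mul]
  have hg₂ : Gens r (r * s) z t₂ := by
    refine ⟨hzr2, hzz, ?_, ?_, ?_, ha3 _ ht₂A, mul_inv_eq_iff_eq_mul.1 (hzA t₂ ht₂A),
      mul_inv_eq_iff_eq_mul.1 hrst₂, hc _ ht₂A _ (hcj r t₂ ht₂A)⟩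
    · rw [hrsr, ← map_mul, ← map_one ι]; rfl
    · rw [hrsr, hz, ← map_mul, ← map_mul]; rfl
    · rw [hrsr, hz, hr, ← map_mul, ← map_mul, ← map_mul]; rfl
  have hclosure₂ : ∀ (Γ : Subgroup S), t₂ ∈ Γ → r ∈ Γ → r * s ∈ Γ → Γ = ⊤ := by
    intro Γ h2 hrΓ hrsΓ
    have hsΓ : s ∈ Γ := by simpa using Γ.mul_mem (Γ.inv_mem hrΓ) hrsΓ
    refine hclosure Γ ?_ hrΓ hsΓ
    -- `t ^ 2 = t₂ * (s t₂ s⁻¹)`
    have h3 : t * t ∈ Γ := by
      have e : t₂ * (s * t₂ * s⁻¹) = t * t := by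
        rw [show s * t₂ * s⁻¹ = (s * t * s⁻¹) * (s * t' * s⁻¹) by rw [ht₂]; group, hst, hst', ht₂]
        calc t * t' * (t * t'⁻¹) = t * (t' * t) * t'⁻¹ := by group
          _ = t * (t * t') * t'⁻¹ := by rw [← hcomm]
          _ = t * t := by group
      exact e ▸ Γ.mul_mem h2 (Γ.mul_mem (Γ.mul_mem hsΓ h2) (Γ.inv_mem hsΓ))
    have e2 : t = (t * t)⁻¹ := eq_inv_of_mul_eq_one_right (ha3 t ht)
    rw [e2]; exact Γ.inv_mem h3
  have hfix₂ : ∀ v, ρ t₂ v = v → ρ (r * t₂ * r⁻¹) v = v → v = 0 := by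
    intro v h1 h2
    have e : r * t₂ * r⁻¹ = t' * t⁻¹ := by
      rw [ht₂, show r * (t * t') * r⁻¹ = (r * t * r⁻¹) * (r * t' * r⁻¹) by group, hrt', ← ht']
    rw [e] at h2
    -- `t'^2` fixes `v`
    have h3 : ρ (t' * t') v = v := by
      have : t' * t' = (t' * t⁻¹) * t₂ := by rw [ht₂]; group
      rw [this, app_mul, h1, h2]
    have h4 : ρ t' v = v := by
      conv_rhs => rw [← app_one ρ v, ← ha3 t' htA', app_mul ρ (t' * t')]
      have : ρ (t' * t') (ρ t' v) = ρ t' (ρ (t' * t') v) := by rw [← app_mul, ← app_mul, mul_assoc]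
      rw [this, h3]
    refine hfix v ?_ h4
    conv_lhs => rw [← h4]
    rw [← app_mul, ← ht₂, h1]
  -- one of the two has a fixed vector
  have hex : (∃ w, w ≠ 0 ∧ ρ t w = w) ∨ ∃ w, w ≠ 0 ∧ ρ t₂ w = w := by
    by_contra hne
    push Not at hne
    obtain ⟨hT, hT₂⟩ := hne
    obtain ⟨v, hv⟩ := exists_ne (0 : M)
    have hT' : ∀ w, ρ t' w = w → w = 0 := by
      intro w hw
      by_contra h0
      apply hT (ρ r⁻¹ w) (fun h => h0 (by rw [← app_one ρ w, ← mul_inv_cancel r, app_mul, h, map_zero]))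
      rw [← app_mul, show t * r⁻¹ = r⁻¹ * t' by rw [ht']; group, app_mul, hw]
    have hT₃ : ∀ w, ρ (s * t₂ * s⁻¹) w = w → w = 0 := by
      intro w hw
      by_contra h0
      apply hT₂ (ρ s⁻¹ w) (fun h => h0 (by rw [← app_one ρ w, ← mul_inv_cancel s, app_mul, h, map_zero]))
      rw [← app_mul, show t₂ * s⁻¹ = s⁻¹ * (s * t₂ * s⁻¹) by group, app_mul, hw]
    have he : s * t₂ * s⁻¹ = t * t'⁻¹ := by
      rw [show s * t₂ * s⁻¹ = (s * t * s⁻¹) * (s * t' * s⁻¹) by rw [ht₂]; group, hst, hst']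
    rw [he] at hT₃
    set P := ρ t
    set Q := ρ t'
    have hPQ : ∀ m, P (Q m) = Q (P m) := fun m =>
      (app_mul ρ t t' m).symm.trans ((congrArg (fun g => ρ g m) hcomm).trans (app_mul ρ t' t m))
    have hP3 : ∀ m, P (P (P m)) = m := fun m => by rw [← app_mul, ← app_mul, ha3 t ht, app_one]
    have hQ3 : ∀ m, Q (Q (Q m)) = m := fun m => by rw [← app_mul, ← app_mul, ha3 t' htA', app_one]
    have htinv : ∀ m, ρ (t * t'⁻¹) m = P (Q (Q m)) := fun m => by
      rw [show t'⁻¹ = t' * t' from (eq_inv_of_mul_eq_one_left (ha3 t' htA')).symm, app_mul, app_mul]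
    have ht₂m : ∀ m, ρ t₂ m = P (Q m) := fun m => by rw [ht₂, app_mul]
    have h1 : v + P v + P (P v) = 0 := by
      by_contra h0
      refine hT _ h0 ?_
      show P _ = _
      rw [map_add, map_add, hP3]; abel
    have h2 : v + Q v + Q (Q v) = 0 := hT' _ (by
      show Q _ = _
      rw [map_add, map_add, hQ3]; abel)
    have h3 : v + P (Q v) + P (P (Q (Q v))) = 0 := by
      by_contra h0
      refine hT₂ _ h0 ?_
      simp only [ht₂m, map_add, hPQ, hP3, hQ3]; abel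
    have h4 : v + P (Q (Q v)) + P (P (Q v)) = 0 := hT₃ _ (by
      simp only [htinv, map_add, hPQ, hP3, hQ3]; abel)
    have h5 : (v + Q v + Q (Q v)) + P (v + Q v + Q (Q v)) + P (P (v + Q v + Q (Q v))) = 0 := by
      rw [h2]; simp
    simp only [map_add] at h5
    apply hv
    have h6 : (3 : ZMod 2) • v = 0 := by
      linear_combination (norm := module) h1 + h2 + h3 + h4 - h5
    rwa [show (3 : ZMod 2) = 1 from by decide, one_smul] at h6
  -- both subgroups of type `2 ^ 2`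
  have hrs1 : r * s ≠ 1 := fun h => absurd (hιinj (a₁ := .r 1 * .sr 0) (a₂ := 1) (by rw [map_mul, map_one]; exact h)) (by decide)
  have hs1 : s ≠ 1 := fun h => absurd (hιinj (a₁ := .sr 0) (a₂ := 1) (by rw [map_one]; exact h)) (by decide)
  have hzs1 : z ≠ s := fun h => absurd (hιinj h) (by decide)
  have hzrs : z ≠ r * s := fun h => absurd (hιinj (a₁ := .r 2) (a₂ := .r 1 * .sr 0) (by rw [map_mul]; exact h)) (by decide)
  set B₁ := four z s hzz hss hzs
  set B₂ := four z (r * s) hzz hg₂.hss hg₂.hzs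
  have hcl : ∀ B : Subgroup S, B ≤ X → Nat.card B = 4 → (∀ b ∈ B, b ^ 2 = 1) → B = B₁ ∨ B = B₂ := by
    intro B hB hB4 hB2
    have hmem : ∀ b ∈ B, b ∈ B₁ ∨ b ∈ B₂ := by
      intro b hb
      obtain ⟨g, rfl⟩ := hιsur b (hB hb)
      have hg : g * g = 1 := hιinj (by rw [map_mul, map_one, ← pow_two]; exact hB2 _ hb)
      rcases dihedral_inv g hg with rfl | rfl | rfl | rfl | rfl | rfl
      · exact Or.inl (by rw [map_one]; exact one_mem _)
      · exact Or.inl (mem_four.2 (Or.inr (Or.inl rfl)))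
      · exact Or.inl (mem_four.2 (Or.inr (Or.inr (Or.inl rfl))))
      · exact Or.inl (mem_four.2 (Or.inr (Or.inr (Or.inr (by rw [hz, hs, ← map_mul]; rfl)))))
      · exact Or.inr (mem_four.2 (Or.inr (Or.inr (Or.inr (by rw [hrsr, hz, ← map_mul]; rfl)))))
      · exact Or.inr (mem_four.2 (Or.inr (Or.inr (Or.inl (by rw [hrsr]; rfl)))))
    have hone : (∀ b ∈ B, b ∈ B₁) ∨ ∀ b ∈ B, b ∈ B₂ := by
      by_contra hne
      push Not at hne
      obtain ⟨⟨a, ha, ha'⟩, b, hb, hb'⟩ := hne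
      obtain ⟨g, rfl⟩ := hιsur a (hB ha)
      obtain ⟨k, rfl⟩ := hιsur b (hB hb)
      have hg : g * g = 1 := hιinj (by rw [map_mul, map_one, ← pow_two]; exact hB2 _ ha)
      have hk : k * k = 1 := hιinj (by rw [map_mul, map_one, ← pow_two]; exact hB2 _ hb)
      have hgk : g * k = k * g := by
        apply hιinj
        rw [map_mul, map_mul]
        have h2 := hB2 _ (B.mul_mem ha hb)
        rw [pow_two] at h2
        have hga := hB2 _ ha
        have hkb := hB2 _ hb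
        rw [pow_two] at hga hkb
        calc ι g * ι k = (ι g * ι k)⁻¹ := eq_inv_of_mul_eq_one_left h2
          _ = ι k * ι g := by
            rw [mul_inv_rev, inv_eq_of_mul_eq_one_right hga, inv_eq_of_mul_eq_one_right hkb]
      refine dihedral_pair k g hk hg hgk.symm ⟨?_, ?_⟩
      · rcases dihedral_inv k hk with rfl | rfl | rfl | rfl | rfl | rfl
        · exact absurd (by rw [map_one]; exact one_mem _) hb'
        · exact absurd (mem_four.2 (Or.inr (Or.inl rfl))) hb'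
        · exact Or.inl rfl
        · exact Or.inr rfl
        · exact absurd (mem_four.2 (Or.inr (Or.inr (Or.inr (by rw [hrsr, hz, ← map_mul]; rfl))))) hb'
        · exact absurd (mem_four.2 (Or.inr (Or.inr (Or.inl (by rw [hrsr]; rfl))))) hb'
      · rcases dihedral_inv g hg with rfl | rfl | rfl | rfl | rfl | rfl
        · exact absurd (by rw [map_one]; exact one_mem _) ha'
        · exact absurd (mem_four.2 (Or.inr (Or.inl rfl))) ha'
        · exact absurd (mem_four.2 (Or.inr (Or.inr (Or.inl rfl)))) ha'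
        · exact absurd (mem_four.2 (Or.inr (Or.inr (Or.inr (by rw [hz, hs, ← map_mul]; rfl))))) ha'
        · exact Or.inl rfl
        · exact Or.inr rfl
    rcases hone with h | h
    · exact Or.inl (Subgroup.eq_of_le_of_card_ge h (by rw [hB4]; exact le_of_eq (card_four hz1 hs1 hzs1)))
    · exact Or.inr (Subgroup.eq_of_le_of_card_ge h (by rw [hB4]; exact le_of_eq (card_four hz1 hrs1 hzrs)))
  have hfixiff : ∀ (y : S) (hy : y * y = 1) (hzy : z * y = y * z) (m : M),
      (∀ b ∈ four z y hzz hy hzy, ρ b m = m) ↔ (ρ z m = m ∧ ρ y m = m) := by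
    intro y hy hzy m
    refine ⟨fun h => ⟨h z (mem_four.2 (Or.inr (Or.inl rfl))), h y (mem_four.2 (Or.inr (Or.inr (Or.inl rfl))))⟩,
      fun ⟨h1, h2⟩ b hb => ?_⟩
    rcases mem_four.1 hb with rfl | rfl | rfl | rfl
    · exact app_one ρ m
    · exact h1
    · exact h2
    · rw [app_mul, h2, h1]
  have hnot2 : ∀ (y : S) (hy : y * y = 1) (hzy : z * y = y * z),
      (∃ a b : M, a ≠ 0 ∧ b ≠ 0 ∧ a ≠ b ∧ (ρ z a = a ∧ ρ y a = a) ∧ (ρ z b = b ∧ ρ y b = b)) →
      Nat.card {m : M // ∀ c ∈ four z y hzz hy hzy, ρ c m = m} ≠ 2 := by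
    rintro y hy hzy ⟨a, b, ha, hb, hab, hfa, hfb⟩ h2
    obtain ⟨u, w, -, huw⟩ := Nat.card_eq_two_iff.1 h2
    have hall := Set.eq_univ_iff_forall.1 huw
    have e0 : ((0 : M) = u ∨ (0 : M) = w) := by
      rcases hall ⟨0, fun c _ => map_zero _⟩ with h | h
      · exact Or.inl (congrArg Subtype.val h)
      · exact Or.inr (congrArg Subtype.val (Set.mem_singleton_iff.1 h))
    have ea : (a = u ∨ a = w) := by
      rcases hall ⟨a, (hfixiff y hy hzy a).2 hfa⟩ with h | h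
      · exact Or.inl (congrArg Subtype.val h)
      · exact Or.inr (congrArg Subtype.val (Set.mem_singleton_iff.1 h))
    have eb : (b = u ∨ b = w) := by
      rcases hall ⟨b, (hfixiff y hy hzy b).2 hfb⟩ with h | h
      · exact Or.inl (congrArg Subtype.val h)
      · exact Or.inr (congrArg Subtype.val (Set.mem_singleton_iff.1 h))
    rcases e0 with e | e <;> rcases ea with e' | e' <;> rcases eb with e'' | e'' <;>
      first
        | exact ha (e'.trans e.symm)
        | exact hb (e''.trans e.symm)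
        | exact hab (e'.trans e''.symm)
  have hBX : ∀ (y : S) (hy : y * y = 1) (hzy : z * y = y * z), y ∈ X →
      four z y hzz hy hzy ≤ X ∧ ∀ b ∈ four z y hzz hy hzy, b ^ 2 = 1 := by
    intro y hy hzy hyX
    refine ⟨fun b hb => ?_, fun b hb => ?_⟩
    · rcases mem_four.1 hb with rfl | rfl | rfl | rfl
      · exact X.one_mem
      · exact hιX _
      · exact hyX
      · exact X.mul_mem (hιX _) hyX
    · rcases mem_four.1 hb with rfl | rfl | rfl | rfl
      · exact one_pow 2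
      · rw [pow_two, hzz]
      · rw [pow_two, hy]
      · rw [pow_two, mul_assoc, ← mul_assoc y, ← hzy, mul_assoc z y y, hy, mul_one, hzz]
  rcases hex with ⟨w, hw, hwt⟩ | ⟨w, hw, hwt⟩
  · obtain ⟨h16, hcard, hab⟩ := module_of_fixed ρ hg₁ (hirr' t hclosure) hfix hw hwt
    refine ⟨h16, B₂, ⟨(hBX _ _ _ (X.mul_mem (hιX _) (hιX _))).1, card_four hz1 hrs1 hzrs,
      (hBX _ _ _ (X.mul_mem (hιX _) (hιX _))).2, ?_⟩, fun B ⟨hB, hB4, hB2, hBf⟩ => ?_⟩
    · rw [Nat.card_congr (Equiv.subtypeEquivRight fun m => hfixiff (r * s) hg₂.hss hg₂.hzs m)]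
      exact hcard
    · refine (hcl B hB hB4 hB2).resolve_left fun h => ?_
      subst h
      exact hnot2 s hss hzs hab hBf
  · have hirr₂ : ∀ N : Submodule (ZMod 2) M, (∀ g ∈ ({t₂, r, r * s} : Set S), ∀ m ∈ N, ρ g m ∈ N) → N = ⊥ ∨ N = ⊤ := by
      intro N hN
      let mon : Submonoid S :=
        { carrier := {g | ∀ m ∈ N, ρ g m ∈ N}
          one_mem' := fun m hm => by rw [app_one]; exact hm
          mul_mem' := fun {a b} ha hb m hm => by rw [app_mul]; exact ha _ (hb _ hm) }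
      let Γ : Subgroup S :=
        { mon with
          inv_mem' := fun {g} hg => by
            have hmem : g⁻¹ ∈ Submonoid.powers g :=
              (IsOfFinOrder.mem_powers_iff_mem_zpowers (isOfFinOrder_of_finite g)).2 (Subgroup.inv_mem _ (Subgroup.mem_zpowers g))
            exact (Submonoid.powers_le.2 (show g ∈ mon from hg)) hmem }
      have := hclosure₂ Γ (hN t₂ (Or.inl rfl)) (hN r (Or.inr (Or.inl rfl))) (hN _ (Or.inr (Or.inr rfl)))
      exact hirr N fun g m hm => (show g ∈ Γ by rw [this]; exact Subgroup.mem_top g) m hm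
    obtain ⟨h16, hcard, hab⟩ := module_of_fixed ρ hg₂ hirr₂ hfix₂ hw hwt
    have e : r * (r * s) = z * s := by rw [← mul_assoc, ← hzr2]
    refine ⟨h16, B₁, ⟨(hBX _ _ _ (hιX _)).1, card_four hz1 hs1 hzs1, (hBX _ _ _ (hιX _)).2, ?_⟩,
      fun B ⟨hB, hB4, hB2, hBf⟩ => ?_⟩
    · rw [Nat.card_congr (Equiv.subtypeEquivRight fun m => (hfixiff s hss hzs m).trans
        (show (ρ z m = m ∧ ρ s m = m) ↔ (ρ z m = m ∧ ρ (r * (r * s)) m = m) by
          rw [e]
          refine ⟨fun h => ⟨h.1, by rw [app_mul, h.2, h.1]⟩, fun h => ⟨h.1, ?_⟩⟩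
          conv_rhs => rw [← h.1]
          conv_lhs => rw [← h.2]
          rw [← app_mul, hzs, ← mul_assoc, hss, one_mul]))]
      exact hcard
    · refine (hcl B hB hB4 hB2).resolve_right fun h => ?_
      subst h
      exact hnot2 _ hg₂.hss hg₂.hzs hab hBf

end Cfsg.Agent.FGS4.SmallModule
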